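import Cfsg.Agent.H798.RG.Neg
import Cfsg.Agent.H798.RG.Rad
import Cfsg.Agent.H967.CopConj

/-!
# `O_p(C(s)) = 1` for inner-diagonal `p'`-elements (helper798, S3509)

* `core_false` : the contradiction inside a parabolic subgroup;
* `op_bot` : **`O_p(C_N(s)) = 1`**, `N = D.group F`, `s` inner-diagonal of order prime to `p`.
-/

set_option autoImplicit false
set_option linter.unusedSectionVars false
set_option maxHeartbeats 400000

namespace Cfsg.Agent.H798.RG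

open CoxeterSystem Subgroup Cfsg Cfsg.Lie Cfsg.Lie.ChevalleyDatum
open Cfsg.Agent.ChevalleyStructure Cfsg.Agent.ChevalleyStructure.Elts Cfsg.Agent.ChevalleyStructure.CoxeterGeom
  Cfsg.Agent.ChevalleyStructure.CoxeterGeomTypes Cfsg.Agent.ChevalleyStructure.NPerm
open Cfsg.Agent.Tits.Roots Cfsg.Agent.Tits.Core Cfsg.Agent.Nodes Cfsg.Agent.Nodes.Reps Cfsg.Agent.Nodes.BNOf
  Cfsg.Agent.Nodes.RGDChev Cfsg.Agent.Nodes.Bruhat Cfsg.Agent.Nodes.StabComb Cfsg.Agent.Nodes.LeviDec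
  Cfsg.Agent.Nodes.OppDec
open Cfsg.Agent.KFacts.RgdField Cfsg.Agent.KFacts.RgdChevCoord
open Cfsg.Agent.BpExc Cfsg.Agent.BpExc.TorCent Cfsg.Agent.BpExc.TorChev Cfsg.Agent.BpExc.Tow
open Cfsg.Agent.BpExc.TowChev Cfsg.Agent.BpExc.Fr Cfsg.Agent.BpExc.LangFr Cfsg.Agent.BpExc.FamUntw
open Cfsg.Agent.GpExc.Field (glMap emb coe_emb glMap_xG emb_injective coe_glMap)
open Cfsg.Agent.H129.TorusChar
open Cfsg.Agent.H469.Exc Cfsg.Agent.H28.GenF
open Cfsg.Agent.H798.OZ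
open scoped Pointwise

universe u v

/-! ### coprime complements -/

/-- `y` of order prime to `p` normalising the finite `p`-group `V`, `y = l v`: `y` is conjugate by `V` into `⟨l⟩` -/
theorem exists_conj_zpowers {Y : Type*} [Group Y] {p : ℕ} [Fact p.Prime] {V : Subgroup Y} [Finite V] (hV : IsPGroup p V)
    {y l v : Y} (hv : v ∈ V) (hyv : y = l * v) (hyn : y ∈ normalizer (V : Set Y)) {m : ℕ} (hm : m ≠ 0)
    (hmp : m.Coprime p) (hym : y ^ m = 1) (hlm : l ^ m = 1) : ∃ v₀ ∈ V, v₀⁻¹ * y * v₀ ∈ zpowers l := by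
  have hyN : zpowers y ≤ normalizer (V : Set Y) := zpowers_le.2 hyn
  have hfy : Finite (zpowers y) :=
    (finite_zpowers.2 (isOfFinOrder_iff_pow_eq_one.2 ⟨m, Nat.pos_of_ne_zero hm, hym⟩)).to_subtype
  set H := zpowers y ⊔ V with hH
  have hfin : Finite H := by
    have h1 : (H : Set Y) = (zpowers y : Set Y) * (V : Set Y) := by
      rw [hH, Subgroup.coe_mul_of_left_le_normalizer_right _ _ hyN]
    have h2 : (H : Set Y).Finite := by
      rw [h1]
      exact Set.Finite.mul (Set.toFinite _) (Set.toFinite _)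
    exact h2
  have hVH : V ≤ H := le_sup_right
  have hyH : y ∈ H := mem_sup_left (mem_zpowers y)
  have hlH : l ∈ H := by
    have : l = y * v⁻¹ := by rw [hyv]; group
    rw [this]
    exact mul_mem hyH (inv_mem (hVH hv))
  have hN : (V.subgroupOf H).Normal := by
    have h1 : H ≤ normalizer (V : Set Y) := sup_le hyN le_normalizer
    constructor
    rintro ⟨x, hx⟩ hxV ⟨g, hg⟩
    rw [mem_subgroupOf] at hxV ⊢
    exact (mem_normalizer_iff.1 (h1 hg) x).1 hxV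
  obtain ⟨e, he⟩ : ∃ e, Nat.card (V.subgroupOf H) = p ^ e := by
    have h1 : IsPGroup p (V.subgroupOf H) := by
      intro x
      obtain ⟨k, hk⟩ := hV ⟨((x : H) : Y), x.2⟩
      refine ⟨k, Subtype.ext (Subtype.ext ?_)⟩
      simpa using congrArg Subtype.val hk
    exact IsPGroup.iff_card.1 h1
  have hcop : ∀ z : H, z ^ m = 1 → (Nat.card (zpowers z)).Coprime (Nat.card (V.subgroupOf H)) := by
    intro z hz
    rw [he, Nat.card_zpowers]
    exact Nat.Coprime.pow_right e (Nat.Coprime.coprime_dvd_left (orderOf_dvd_of_pow_eq_one hz) hmp)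
  have hs : Group.IsSolvable (zpowers (⟨l, hlH⟩ : H)) := inferInstance
  obtain ⟨g, hg⟩ := H967.CopConj.conj_le (V.subgroupOf H) (zpowers (⟨l, hlH⟩ : H)) hs
    (hcop _ (Subtype.ext (by simpa using hlm))) (zpowers (⟨y, hyH⟩ : H)) (hcop _ (Subtype.ext (by simpa using hym))) (by
      rw [zpowers_le]
      have h1 : (⟨y, hyH⟩ : H) = ⟨l, hlH⟩ * ⟨v, hVH hv⟩ := Subtype.ext hyv
      rw [h1]
      exact mul_mem (mem_sup_left (mem_zpowers _)) (mem_sup_right (mem_subgroupOf.2 hv)))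
  have h1 : (g : H) * ⟨y, hyH⟩ * g⁻¹ ∈ zpowers (⟨l, hlH⟩ : H) :=
    hg (Subgroup.smul_mem_pointwise_smul _ _ _ (mem_zpowers _))
  obtain ⟨i, hi⟩ := mem_zpowers_iff.1 h1
  have h2 : (g : Y) * y * (g : Y)⁻¹ ∈ zpowers l := by
    refine mem_zpowers_iff.2 ⟨i, ?_⟩
    simpa using congrArg Subtype.val hi
  obtain ⟨a, ha, b, hb, e2⟩ := Cfsg.Agent.H18.Carter.mul_mem_of_norm' hyN (inv_mem g.2 : ((g : Y)⁻¹ ∈ zpowers y ⊔ V))
  obtain ⟨j, rfl⟩ := mem_zpowers_iff.1 ha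
  refine ⟨b, hb, ?_⟩
  have h3 : b⁻¹ * y * b = (g : Y) * y * (g : Y)⁻¹ := by
    have h4 : (g : Y) = b⁻¹ * (y ^ j)⁻¹ := by
      rw [← inv_inv (g : Y), e2]; group
    rw [h4]
    have h5 : (y ^ j)⁻¹ * y * (y ^ j) = y := by
      have : Commute y (y ^ j) := Commute.self_zpow y j
      rw [mul_assoc, this.eq]; group
    calc b⁻¹ * y * b = b⁻¹ * ((y ^ j)⁻¹ * y * (y ^ j)) * b := by rw [h5]
      _ = b⁻¹ * (y ^ j)⁻¹ * y * (b⁻¹ * (y ^ j)⁻¹)⁻¹ := by group
  rw [h3]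
  exact h2

/-- `(y v)^m = y^m v'` -/
theorem mul_pow_mem {Y : Type*} [Group Y] {V : Subgroup Y} {y v : Y} (hv : v ∈ V) (hyn : y ∈ normalizer (V : Set Y))
    (m : ℕ) : ∃ v' ∈ V, (y * v) ^ m = y ^ m * v' := by
  induction m with
  | zero => exact ⟨1, one_mem _, by simp⟩
  | succ m ih =>
    obtain ⟨v', hv', e⟩ := ih
    refine ⟨y⁻¹ * v' * y * v, mul_mem ?_ hv, ?_⟩
    · have := (mem_normalizer_iff.1 (inv_mem hyn) v').1 hv'
      rwa [inv_inv] at this
    · rw [pow_succ, e, pow_succ]; group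

section Lim

variable {I W Y : Type*} [Fintype I] [DecidableEq I] [Group W] [Group Y] {M : CoxeterMatrix I}
  {cs : CoxeterSystem M W} {A : I → I → ℤ} {h : IsCartan M A} {p : ℕ}
variable {J' : Type*} [Preorder J'] {T : J' → Subgroup Y} {n : I → Y} {X : J' → (I → ℤ) → Subgroup Y}
  (H : Tow cs h p T n X) [Finite W]

include H

theorem LJL_conj_VNJL {J : Set I} {y v : Y} (hy : y ∈ LJ cs h (TL T) (XL X) J) (hv : v ∈ VNJ cs h (XL X) J) :
    y * v * y⁻¹ ∈ VNJ cs h (XL X) J := by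
  obtain ⟨j1, h1⟩ := (mem_LJL H).1 hy
  obtain ⟨j2, h2⟩ := H.mem_Sup.1 hv
  obtain ⟨j, a, b⟩ := H.dir j1 j2
  have h4 := LJ_le_normalizer_VNJ (H.rgd j) J (mono_LJ H a J h1)
  exact Sup_le_SupL j _ ((mem_normalizer_iff.1 h4 v).1 (H.mono_Sup _ b h2))

theorem pow_eq_one_VNJL {J : Set I} {v : Y} (hv : v ∈ VNJ cs h (XL X) J) : ∃ j, v ^ p ^ j = 1 := by
  obtain ⟨j, h2⟩ := H.mem_Sup.1 hv
  obtain ⟨k, hk⟩ := exists_rp cs (H.rgd j).nsys (w0 cs)
  have h3 : IsPGroup p ↥(UN cs h (X j)) := by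
    rw [← cj_U (H.rgd j) hk]
    exact (H.rgd j).isPGroup_Upos.map _
  obtain ⟨e, he⟩ := h3 ⟨v, VNJ_le_UN J h2⟩
  exact ⟨e, by simpa using congrArg Subtype.val he⟩

end Lim

section Main

variable {D : ChevalleyDatum} {l : ℕ} {M : CoxeterMatrix (Fin l)} (hp : IsType D l M)
  {W : Type v} [Group W] (cs : CoxeterSystem M W) [Finite W]
variable {r : ℕ} [Fact r.Prime] {F : Type} [Field F] [Finite F] [CharP F r] (f : F →+* KK r) {n : ℕ}
  (hn : Nat.card F = r ^ n)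

include cs hn in
/-- the fixed torus normalises the groups over `F` -/
theorem torus_norm {S : Set (Fin l → ℤ)} (hS : ∀ a ∈ S, IsRoot cs hp.isCartan a) {t : ↥(D.group (KK r))}
    (ht : t ∈ TT D (KK r)) (hσ : phi D (KK r) r n t = t) {v : ↥(D.group F)} (hv : v ∈ RGD.Sup (XX D l F) S) :
    ∃ v' ∈ RGD.Sup (XX D l F) S, t * emb hp.inList f v * t⁻¹ = emb hp.inList f v' := by
  have := Fintype.ofFinite F
  have h1 : RGD.Sup (XX D l F) S ≤
      ((RGD.Sup (XX D l F) S).map (emb hp.inList f)).comap ((MulAut.conj t).toMonoidHom.comp (emb hp.inList f)) := by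
    refine RGD.Sup_le fun a ha x hx => ?_
    obtain ⟨m, hm, rfl, c, rfl⟩ := exists_xc hp cs (hS a ha) hx
    show t * emb hp.inList f (xc hp (vec D l m) c) * t⁻¹ ∈ (RGD.Sup (XX D l F) S).map (emb hp.inList f)
    have h2 := H378.TorChar.ch_phi hp r (m := n) hm ht
    rw [hσ] at h2
    obtain ⟨b, hb⟩ := (BpExc.Emb.fix_iff_range (f := f) (φ := H378.TorFin.frobHom (KK r) r n)
      (H378.TorFin.frobHom_fix r hn) (ch hp (vec D l m) t)).1 (by rw [H378.TorFin.frobHom_apply]; exact h2.symm)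
    rw [TowChev.emb_xc hp, (act hp hm ht).2, ← hb, ← map_mul, ← TowChev.emb_xc hp]
    refine ⟨_, RGD.le_Sup ha ?_, rfl⟩
    rw [LangThm.mem_XX_vec hp hm]
    exact ⟨_, coe_xc hp hm _⟩
  obtain ⟨v', hv', e⟩ := h1 hv
  exact ⟨v', hv', e.symm⟩

include hn in
/-- **The contradiction in a parabolic subgroup.** -/
theorem core_false {d : ℕ} {B : Fin l → Fin l → ℤ} (hB : InvC D l d B) (hd : d ≠ 0)
    {J : Set (Fin l)} {y : ↥(D.group (KK r))} (hy : phi D (KK r) r n y = y) {m : ℕ} (hm : m ≠ 0) (hmr : m.Coprime r)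
    (hym : y ^ m = 1)
    (hyV : ∀ v ∈ VJ cs hp.isCartan (XX D l F) J, ∃ v' ∈ VJ cs hp.isCartan (XX D l F) J,
      y * emb hp.inList f v * y⁻¹ = emb hp.inList f v')
    (hyV' : ∀ v ∈ VJ cs hp.isCartan (XX D l F) J, ∃ v' ∈ VJ cs hp.isCartan (XX D l F) J,
      y⁻¹ * emb hp.inList f v * y = emb hp.inList f v')
    (hP : normalizer (VJ cs hp.isCartan (XX D l F) J : Set ↥(D.group F)) ≤ PJ cs hp.isCartan (TT D F) (XX D l F) J)
    (hC : ∀ g, y * emb hp.inList f g = emb hp.inList f g * y → g ∈ PJ cs hp.isCartan (TT D F) (XX D l F) J)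
    {u : ↥(D.group F)} (hu : u ∈ VJ cs hp.isCartan (XX D l F) J) (hu1 : u ≠ 1)
    (hyu : y * emb hp.inList f u = emb hp.inList f u * y) : False := by
  have hk := locFin r
  have H := tow hp cs hk r
  have hA : Cfsg.Agent.BpExc.TorAll.HAlg r (KK r) := Cfsg.Agent.BpExc.TorAll.hAlg_of_isAlgebraic r (KK r)
  set ι := emb hp.inList f with hι
  have hinj : Function.Injective ι := emb_injective hp.inList f
  have hφι : ∀ g, phi D (KK r) r n (ι g) = ι g := fun g => H378.TorFin.phi_emb' hp f r hn g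
  have hroot : ∀ a ∈ NotJ cs hp.isCartan J, IsRoot cs hp.isCartan a := fun a ha => ha.1
  obtain ⟨a', ⟨a, rfl⟩, t, ht, hσt, e⟩ := H378.TorFin.exists_split hp f r hn hy
  rw [← hι] at e
  -- `a` normalises `V_J`
  have ht' : t⁻¹ ∈ TT D (KK r) := inv_mem ht
  have hσt' : phi D (KK r) r n t⁻¹ = t⁻¹ := by rw [map_inv, hσt]
  have haP : a ∈ PJ cs hp.isCartan (TT D F) (XX D l F) J := by
    apply hP
    rw [mem_normalizer_iff]
    have h1 : ∀ v ∈ VJ cs hp.isCartan (XX D l F) J, a * v * a⁻¹ ∈ VJ cs hp.isCartan (XX D l F) J := by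
      intro v hv
      obtain ⟨v1, hv1, e1⟩ := torus_norm hp cs f hn hroot ht' hσt' hv
      obtain ⟨v2, hv2, e2⟩ := hyV v1 hv1
      rw [← hι] at e1
      have h2 : ι (a * v * a⁻¹) = ι v2 := by
        rw [← e2, ← e1, map_mul, map_mul, map_inv]
        have h3 : ι a = y * t⁻¹ := by rw [e]; group
        rw [h3]; group
      rw [hinj h2]
      exact hv2
    have h2 : ∀ v ∈ VJ cs hp.isCartan (XX D l F) J, a⁻¹ * v * a ∈ VJ cs hp.isCartan (XX D l F) J := by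
      intro v hv
      obtain ⟨v1, hv1, e1⟩ := hyV' v hv
      obtain ⟨v2, hv2, e2⟩ := torus_norm hp cs f hn hroot ht hσt hv1
      rw [← hι] at e2
      have h2 : ι (a⁻¹ * v * a) = ι v2 := by
        rw [← e2, ← e1, map_mul, map_mul, map_inv]
        have h3 : ι a = y * t⁻¹ := by rw [e]; group
        rw [h3]; group
      rw [hinj h2]
      exact hv2
    intro v
    refine ⟨h1 v, fun hv => ?_⟩
    have h3 := h2 _ hv
    have e3 : a⁻¹ * (a * v * a⁻¹) * a = v := by group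
    rwa [e3] at h3
  -- the Levi part
  have R := rgd (K := F) hp cs r
  obtain ⟨la, hla, va, hva, rfl⟩ := (mem_PJ R).1 haP
  obtain ⟨v1, hv1, e1⟩ := torus_norm hp cs f hn hroot ht' hσt' hva
  rw [← hι, inv_inv] at e1
  set L := ι la * t with hL
  have hyL : y = L * ι v1 := by
    rw [e, map_mul, ← e1, hL]; group
  have hLJ : L ∈ LJ cs hp.isCartan (TT D (KK r)) (XX D l (KK r)) J :=
    mul_mem (emb_LJ hp cs f hla) ((le_sup_left : TT D (KK r) ≤ LJ cs hp.isCartan (TT D (KK r)) (XX D l (KK r)) J) ht)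
  have hLσ : phi D (KK r) r n L = L := by rw [hL, map_mul, hφι, hσt]
  set V := (VJ cs hp.isCartan (XX D l F) J).map ι with hV
  have hVp : IsPGroup r V := (KFacts.RgdCharP.isPGroup_VJ R J).map _
  have hfinV : Finite V := by
    have h1 : (V : Set ↥(D.group (KK r))).Finite := by
      rw [hV, Subgroup.coe_map]
      exact Set.Finite.image _ (Set.toFinite _)
    exact h1
  have hVk : ∀ x ∈ V, x ∈ VJ cs hp.isCartan (XX D l (KK r)) J := by
    rintro _ ⟨x, hx, rfl⟩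
    exact emb_VJ hp cs f hx
  have hyn : y ∈ normalizer (V : Set ↥(D.group (KK r))) := by
    rw [mem_normalizer_iff]
    have h1 : ∀ x ∈ V, y * x * y⁻¹ ∈ V := by
      rintro _ ⟨x, hx, rfl⟩
      obtain ⟨x', hx', e'⟩ := hyV x hx
      exact ⟨x', hx', e'.symm⟩
    have h2 : ∀ x ∈ V, y⁻¹ * x * y ∈ V := by
      rintro _ ⟨x, hx, rfl⟩
      obtain ⟨x', hx', e'⟩ := hyV' x hx
      exact ⟨x', hx', e'.symm⟩
    intro x
    refine ⟨h1 x, fun hx => ?_⟩
    have h3 := h2 _ hx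
    have e3 : y⁻¹ * (y * x * y⁻¹) * y = x := by group
    rwa [e3] at h3
  have hv1V : ι v1 ∈ V := ⟨v1, hv1, rfl⟩
  have hLm : L ^ m = 1 := by
    have h1 : L = y * (ι v1)⁻¹ := by rw [hyL]; group
    obtain ⟨v', hv', e'⟩ := mul_pow_mem (inv_mem hv1V) hyn m
    rw [← h1, hym, one_mul] at e'
    exact LJK_inf_VJK hp cs hk r (pow_mem hLJ m) (by rw [e']; exact hVk _ hv')
  obtain ⟨_, ⟨v0, hv0, rfl⟩, hs⟩ := exists_conj_zpowers hVp hv1V hyL hyn hm hmr hym hLm
  set s := (ι v0)⁻¹ * y * ι v0 with hsd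
  have hsL : s ∈ LJ cs hp.isCartan (TT D (KK r)) (XX D l (KK r)) J := (zpowers_le.2 hLJ) hs
  have hsσ : phi D (KK r) r n s = s := by rw [hsd, map_mul, map_mul, map_inv, hφι, hy]
  have hsm : s ^ m = 1 := by
    have h1 : s = (ι v0)⁻¹ * y * (ι v0)⁻¹⁻¹ := by rw [hsd, inv_inv]
    rw [h1, conj_pow, hym]; group
  -- the fixed element of `V_J`
  set u0 := v0⁻¹ * u * v0 with hu0
  have hu0V : u0 ∈ VJ cs hp.isCartan (XX D l F) J := mul_mem (mul_mem (inv_mem hv0) hu) hv0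
  have hu01 : u0 ≠ 1 := by
    intro h
    apply hu1
    have : u = v0 * u0 * v0⁻¹ := by rw [hu0]; group
    rw [this, h]; group
  have hsu : s * ι u0 = ι u0 * s := by
    rw [hsd, hu0, map_mul, map_mul, map_inv]
    calc (ι v0)⁻¹ * y * ι v0 * ((ι v0)⁻¹ * ι u * ι v0) = (ι v0)⁻¹ * (y * ι u) * ι v0 := by group
      _ = (ι v0)⁻¹ * (ι u * y) * ι v0 := by rw [hyu]
      _ = _ := by group
  obtain ⟨g, hg, t1, ht1, e4⟩ := toral_LJ hp cs hk r hA hsL hm hmr hsm
  have hg' : g⁻¹ ∈ LJ cs hp.isCartan (TT D (KK r)) (XX D l (KK r)) J := inv_mem hg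
  have hu2 : g⁻¹ * ι u0 * g ∈ VJ cs hp.isCartan (XX D l (KK r)) J := by
    have := PJK_conj_mem hp cs hk r (LJ_le_PJ hg') (emb_VJ hp cs f hu0V)
    rwa [inv_inv] at this
  have hu21 : g⁻¹ * ι u0 * g ≠ 1 := by
    intro h
    apply hu01
    apply hinj
    have : ι u0 = g * (g⁻¹ * ι u0 * g) * g⁻¹ := by group
    rw [this, h, map_one]; group
  have hcomm2 : t1 * (g⁻¹ * ι u0 * g) = (g⁻¹ * ι u0 * g) * t1 := by
    have h1 : t1 = g⁻¹ * s * g := by rw [e4]; group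
    rw [h1]
    calc g⁻¹ * s * g * (g⁻¹ * ι u0 * g) = g⁻¹ * (s * ι u0) * g := by group
      _ = g⁻¹ * (ι u0 * s) * g := by rw [hsu]
      _ = _ := by group
  obtain ⟨b, hb, x, hx, hx1, hxc⟩ := exists_root_VJL H (J := J) (t := t1) (u := g⁻¹ * ι u0 * g)
    (by rw [TL_eq hp hk]; exact ht1) (by rw [XL_eq hp hk]; exact hu2) hu21 hcomm2
  rw [XL_eq hp hk] at hx
  have hb1 : cX hp t1 b = 1 := by
    by_contra h
    exact hx1 (eq_one_of_comm hp cs ht1 hb.1 h hx hxc)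
  have hMC := isMC_cX hp ht1
  have hb2 : cX hp t1 (-b) = 1 := by rw [hMC.neg, hb1, inv_one]
  -- the opposite root element
  obtain ⟨i, hi, hib⟩ := (isRoot_iff hp cs (-b)).1 hb.1.neg
  have hib' : vec D l i = -b := hib
  have hx' : xc hp (vec D l i) 1 ∈ XX D l (KK r) (-b) := by
    rw [← hib', LangThm.mem_XX_vec hp hi]
    exact ⟨_, coe_xc hp hi _⟩
  have hx'1 : (xc hp (vec D l i) 1 : ↥(D.group (KK r))) ≠ 1 := by
    intro h
    have h0 : (xc hp (vec D l i) 0 : ↥(D.group (KK r))) = 1 :=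
      Subtype.ext (by rw [coe_xc hp hi, xG_zero, Subgroup.coe_one])
    rw [← h0] at h
    exact one_ne_zero (xc_inj hp hi h)
  have hbN : -b ∈ NotNJ cs hp.isCartan J := by
    show - -b ∈ NotJ cs hp.isCartan J
    rw [neg_neg]; exact hb
  have hx'c : t1 * xc hp (vec D l i) 1 = xc hp (vec D l i) 1 * t1 := comm_of_cX hp cs ht1 hb.1.neg hb2 hx'
  have hw : g * xc hp (vec D l i) 1 * g⁻¹ ∈ VNJ cs hp.isCartan (XX D l (KK r)) J := by
    have h1 := LJL_conj_VNJL H (J := J) (y := g) (v := xc hp (vec D l i) 1)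
      (by rw [TL_eq hp hk, XL_eq hp hk]; exact hg) (by rw [XL_eq hp hk]; exact RGD.le_Sup hbN hx')
    rwa [XL_eq hp hk] at h1
  obtain ⟨z, hz, hz1, hzc, hzσ⟩ := exists_neg hp cs hk r hB hd (n := n) hsL hsσ hw (by
      intro h
      apply hx'1
      have : (xc hp (vec D l i) 1 : ↥(D.group (KK r))) = g⁻¹ * (g * xc hp (vec D l i) 1 * g⁻¹) * g := by group
      rw [this, h]; group) (by
      rw [e4]
      calc g * t1 * g⁻¹ * (g * xc hp (vec D l i) 1 * g⁻¹) = g * (t1 * xc hp (vec D l i) 1) * g⁻¹ := by group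
        _ = g * (xc hp (vec D l i) 1 * t1) * g⁻¹ := by rw [hx'c]
        _ = _ := by group)
  obtain ⟨j, hj⟩ := pow_eq_one_VNJL H (J := J) (v := z) (by rw [XL_eq hp hk]; exact hz)
  obtain ⟨b', hb'⟩ := mem_emb_of_pow hp f hn hzσ hj
  rw [← hι] at hb'
  have h6 : v0 * b' * v0⁻¹ ∈ PJ cs hp.isCartan (TT D F) (XX D l F) J := by
    apply hC
    rw [map_mul, map_mul, map_inv, hb']
    have h7 : y = ι v0 * s * (ι v0)⁻¹ := by rw [hsd]; group
    rw [h7]
    calc ι v0 * s * (ι v0)⁻¹ * (ι v0 * z * (ι v0)⁻¹) = ι v0 * (s * z) * (ι v0)⁻¹ := by group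
      _ = ι v0 * (z * s) * (ι v0)⁻¹ := by rw [hzc]
      _ = _ := by group
  have h8 : b' ∈ PJ cs hp.isCartan (TT D F) (XX D l F) J := by
    have h9 : b' = v0⁻¹ * (v0 * b' * v0⁻¹) * v0 := by group
    rw [h9]
    exact mul_mem (mul_mem (inv_mem (VJ_le_PJ hv0)) h6) (VJ_le_PJ hv0)
  have h10 : z ∈ PJ cs hp.isCartan (TT D (KK r)) (XX D l (KK r)) J := by
    rw [← hb']; exact emb_PJ hp cs f h8
  exact hz1 (eq_one_VNJ_PJL H (J := J) (by rw [XL_eq hp hk]; exact hz) (by rw [TL_eq hp hk, XL_eq hp hk]; exact h10))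

include cs hn in
/-- **`O_p(C_N(s)) = 1`** for inner-diagonal `p'`-elements `s`: a `p`-subgroup `Q` of `C_N(s)` normalised by `C_N(s)` is
trivial. -/
theorem op_bot {d : ℕ} {B : Fin l → Fin l → ℤ} (hB : InvC D l d B) (hd : d ≠ 0)
    (hZ : center ↥(D.group (KK r)) = ⊥) {α : MulAut ↥(D.group F)} (hα : α ∈ InD (emb hp.inList f)) {m : ℕ}
    (hmr : m.Coprime r) (hαm : α ^ m = 1) {Q : Subgroup ↥(D.group F)} (hQ : IsPGroup r Q) (hcQ : ∀ a ∈ Q, α a = a)
    (hnQ : ∀ g, α g = g → g ∈ normalizer (Q : Set ↥(D.group F))) : Q = ⊥ := by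
  have hk := locFin r
  have hm : m ≠ 0 := by
    rintro rfl
    have h1 : r = 1 := by simpa using hmr
    exact (Fact.out : r.Prime).one_lt.ne' h1
  obtain ⟨y, hy⟩ := hα
  set ι := emb hp.inList f with hι
  have hinj : Function.Injective ι := emb_injective hp.inList f
  have hφι : ∀ g, phi D (KK r) r n (ι g) = ι g := fun g => H378.TorFin.phi_emb' hp f r hn g
  have hyσ : phi D (KK r) r n y = y := by
    have h1 : y⁻¹ * phi D (KK r) r n y = 1 := by
      refine BpExc.FamUntw.eq_one_of_comm hp hk r f hZ fun a => ?_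
      rw [← hι]
      have h2 := congrArg (phi D (KK r) r n) (hy a)
      rw [hφι, map_mul, map_mul, map_inv, hφι, hy] at h2
      calc y⁻¹ * phi D (KK r) r n y * ι a = y⁻¹ * (phi D (KK r) r n y * ι a * (phi D (KK r) r n y)⁻¹) *
            phi D (KK r) r n y := by group
        _ = y⁻¹ * (y * ι a * y⁻¹) * phi D (KK r) r n y := by rw [h2]
        _ = _ := by group
    exact (inv_mul_eq_one.1 h1).symm
  have hpow : ∀ j : ℕ, ∀ a, ι ((α ^ j) a) = y ^ j * ι a * (y ^ j)⁻¹ := by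
    intro j
    induction j with
    | zero => intro a; simp
    | succ j ih => intro a; rw [pow_succ', MulAut.mul_apply, hy, ih, pow_succ' y]; group
  have hym : y ^ m = 1 := by
    refine BpExc.FamUntw.eq_one_of_comm hp hk r f hZ fun a => ?_
    have h1 := hpow m a
    rw [hαm, MulAut.one_apply] at h1
    rw [← hι]
    exact (eq_mul_inv_iff_mul_eq.1 h1).symm
  by_contra hQ1
  have R := rgd (K := F) hp cs r
  have hQα : Q.map α.toMonoidHom = Q := by
    ext x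
    constructor
    · rintro ⟨a, ha, rfl⟩
      show α a ∈ Q
      rw [hcQ a ha]; exact ha
    · intro hx
      exact ⟨x, hx, hcQ x hx⟩
  obtain ⟨P, hP1, hP2, hP3, hP4, hP5⟩ := exists_radical hQ hQα
  have hP0 : P ≠ ⊥ := fun h => hQ1 (by rw [h] at hP2; exact le_bot_iff.1 hP2)
  obtain ⟨g, J, -, hPJ, hNJ⟩ := H381.Car.radical_eq (KFacts.RgdFiltChev.filt hp cs r) (G1_eq_top (K := F) hp cs) hP1 hP0 hP5
  -- conjugation by `g`
  set y1 := (ι g)⁻¹ * y * ι g with hy1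
  have hmemP : ∀ v, v ∈ VJ cs hp.isCartan (XX D l F) J ↔ g * v * g⁻¹ ∈ P := by
    intro v
    rw [hPJ, mem_cj]
    have e : g⁻¹ * (g * v * g⁻¹) * g = v := by group
    rw [e]
  have hαP : ∀ x, α x ∈ P ↔ x ∈ P := by
    intro x
    constructor
    · intro h
      rw [← hP4] at h
      obtain ⟨z, hz, e⟩ := h
      rwa [← α.injective e]
    · intro h
      rw [← hP4]
      exact ⟨x, h, rfl⟩
  have hconj : ∀ v, y1 * ι v * y1⁻¹ = ι (g⁻¹ * α (g * v * g⁻¹) * g) := by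
    intro v
    rw [map_mul, map_mul, map_inv, hy, hy1, map_mul, map_mul, map_inv]
    group
  have hconj' : ∀ v, y1⁻¹ * ι v * y1 = ι (g⁻¹ * α.symm (g * v * g⁻¹) * g) := by
    intro v
    have h1 := hconj (g⁻¹ * α.symm (g * v * g⁻¹) * g)
    have e : g * (g⁻¹ * α.symm (g * v * g⁻¹) * g) * g⁻¹ = α.symm (g * v * g⁻¹) := by group
    rw [e, MulEquiv.apply_symm_apply] at h1
    have e2 : g⁻¹ * (g * v * g⁻¹) * g = v := by group
    rw [e2] at h1
    rw [← h1]; group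
  obtain ⟨u, hu, hu1⟩ := Q.bot_or_exists_ne_one.resolve_left hQ1
  refine core_false hp cs f hn hB hd (J := J) (y := y1) ?_ hm hmr ?_ ?_ ?_ ?_ ?_ (u := g⁻¹ * u * g) ?_ ?_ ?_
  · rw [hy1, map_mul, map_mul, map_inv, hφι, hyσ]
  · have h1 : y1 = (ι g)⁻¹ * y * (ι g)⁻¹⁻¹ := by rw [hy1, inv_inv]
    rw [h1, conj_pow, hym]; group
  · intro v hv
    refine ⟨_, ?_, hconj v⟩
    rw [hmemP]
    have e : g * (g⁻¹ * α (g * v * g⁻¹) * g) * g⁻¹ = α (g * v * g⁻¹) := by group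
    rw [e, hαP, ← hmemP]
    exact hv
  · intro v hv
    refine ⟨_, ?_, hconj' v⟩
    rw [hmemP]
    have e : g * (g⁻¹ * α.symm (g * v * g⁻¹) * g) * g⁻¹ = α.symm (g * v * g⁻¹) := by group
    rw [e, ← hαP, MulEquiv.apply_symm_apply, ← hmemP]
    exact hv
  · intro x hx
    have h1 : g * x * g⁻¹ ∈ normalizer (P : Set ↥(D.group F)) := by
      rw [mem_normalizer_iff]
      intro z
      have h2 := mem_normalizer_iff.1 hx (g⁻¹ * z * g)
      rw [hmemP, hmemP] at h2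
      have e1 : g * (g⁻¹ * z * g) * g⁻¹ = z := by group
      have e2 : g * (x * (g⁻¹ * z * g) * x⁻¹) * g⁻¹ = g * x * g⁻¹ * z * (g * x * g⁻¹)⁻¹ := by group
      rwa [e1, e2] at h2
    rw [hNJ, mem_cj] at h1
    have e : g⁻¹ * (g * x * g⁻¹) * g = x := by group
    rwa [e] at h1
  · intro b hb
    have h1 : α (g * b * g⁻¹) = g * b * g⁻¹ := by
      apply hinj
      rw [hy, map_mul, map_mul, map_inv]
      have h2 : y1 * ι b * y1⁻¹ = ι b := by
        rw [← hι] at hb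
        rw [hb]; group
      have h3 : y = ι g * y1 * (ι g)⁻¹ := by rw [hy1]; group
      rw [h3]
      calc ι g * y1 * (ι g)⁻¹ * (ι g * ι b * (ι g)⁻¹) * (ι g * y1 * (ι g)⁻¹)⁻¹
          = ι g * (y1 * ι b * y1⁻¹) * (ι g)⁻¹ := by group
        _ = _ := by rw [h2]
    have h4 := hP3 (hnQ _ h1)
    rw [hNJ, mem_cj] at h4
    have e : g⁻¹ * (g * b * g⁻¹) * g = b := by group
    rwa [e] at h4
  · rw [hmemP]
    have e : g * (g⁻¹ * u * g) * g⁻¹ = u := by group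
    rw [e]; exact hP2 hu
  · intro h
    apply hu1
    have : u = g * (g⁻¹ * u * g) * g⁻¹ := by group
    rw [this, h]; group
  · rw [← hι, map_mul, map_mul, map_inv]
    have h2 : y * ι u = ι u * y := by
      have := hy u
      rw [hcQ u hu] at this
      exact (eq_mul_inv_iff_mul_eq.1 this).symm
    rw [hy1]
    calc (ι g)⁻¹ * y * ι g * ((ι g)⁻¹ * ι u * ι g) = (ι g)⁻¹ * (y * ι u) * ι g := by group
      _ = (ι g)⁻¹ * (ι u * y) * ι g := by rw [h2]
      _ = _ := by group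

end Main

end Cfsg.Agent.H798.RG
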