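import Cfsg.Agent.H798.OZ.Ell
import Cfsg.Agent.H944.TorAnyChev

/-!
# Semisimple elements of the Levi subgroups (helper798, S3509)

* `exists_conj_T` : `y t y⁻¹ ∈ P_J`, `t ∈ T` : conjugate in `P_J` to an element of `T`;
* `toral_LJ` : elements of order prime to `p` in `L_J(k)` are conjugate in `L_J(k)` to elements of `T`;
* `exists_root_VJ` : `t ∈ T` with fixed points in `V_J` centralises a root element of `V_J`.
-/

set_option autoImplicit false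
set_option linter.unusedSectionVars false
set_option maxHeartbeats 400000

namespace Cfsg.Agent.H798.RG

open CoxeterSystem Subgroup Cfsg Cfsg.Lie Cfsg.Lie.ChevalleyDatum
open Cfsg.Agent.ChevalleyStructure Cfsg.Agent.ChevalleyStructure.Elts Cfsg.Agent.ChevalleyStructure.CoxeterGeom
  Cfsg.Agent.ChevalleyStructure.CoxeterGeomTypes Cfsg.Agent.ChevalleyStructure.NPerm
open Cfsg.Agent.Tits.Roots Cfsg.Agent.Tits.Core Cfsg.Agent.Nodes Cfsg.Agent.Nodes.Reps Cfsg.Agent.Nodes.BNOf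
  Cfsg.Agent.Nodes.RGDChev Cfsg.Agent.Nodes.Bruhat Cfsg.Agent.Nodes.StabComb Cfsg.Agent.Nodes.LeviDec
  Cfsg.Agent.Nodes.NormalForm Cfsg.Agent.Nodes.OppDec Cfsg.Agent.Tits.Exchange
open Cfsg.Agent.KFacts.RgdField Cfsg.Agent.KFacts.RgdChevCoord
open Cfsg.Agent.BpExc Cfsg.Agent.BpExc.TorCent Cfsg.Agent.BpExc.TorChev Cfsg.Agent.BpExc.Tow
open Cfsg.Agent.GpExc.Field Cfsg.Agent.BpExc.TowChev Cfsg.Agent.BpExc.Fr Cfsg.Agent.BpExc.LangFr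
open Cfsg.Agent.H129.TorusChar Cfsg.Agent.H129.TorusMain Cfsg.Agent.H129.TorusUntw
open Cfsg.Agent.H798.OZ

universe u v

section RGD

variable {I W Y : Type*} [Fintype I] [DecidableEq I] [Group W] [Group Y] {M : CoxeterMatrix I}
  {cs : CoxeterSystem M W} {A : I → I → ℤ} {h : IsCartan M A} {p : ℕ} {T : Subgroup Y} {n : I → Y}
  {X : (I → ℤ) → Subgroup Y} (R : RGD cs h p T n X) [Finite W]

include R

/-- **Torus elements in parabolic subgroups.** -/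
theorem exists_conj_T {K : Set I} {t y : Y} (ht : t ∈ T) (hy : y ∈ GG cs h T X)
    (h1 : y * t * y⁻¹ ∈ PJ cs h T X K) : ∃ a ∈ PJ cs h T X K, ∃ t' ∈ T, y * t * y⁻¹ = a * t' * a⁻¹ := by
  obtain ⟨a, ha, b, hb, w, g, hg, rfl, hmin⟩ := exists_left_rep R hy K
  obtain ⟨s, hs, u, hu, rfl⟩ := R.mem_B.1 hb
  obtain ⟨b', hb', c, hc, rfl⟩ := exists_PW_NW R w hu
  have hk : Rp cs R.nsys w (g * s) := hg.mul_mem_right hs
  have h2 : (g * s) * b' * (g * s)⁻¹ ∈ RGD.Sup X (RGD.Pos cs h) :=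
    conj_mem_Sup R hk (S' := RGD.Pos cs h) (fun x hx => hx.1) (fun x hx => ⟨hx.1.act _, hx.2.2⟩) hb'
  set k := g * s with hkd
  set a' := a * (k * b' * k⁻¹) with ha'
  have ha'P : a' ∈ PJ cs h T X K := mul_mem ha (B_le_PJ (RGD.U_le_B h2))
  have e : a * g * (s * (b' * c)) = a' * k * c := by
    rw [ha', hkd]; group
  rw [e] at h1 ⊢
  have h3 : k * (c * t * c⁻¹) * k⁻¹ ∈ PJ cs h T X K := by
    have h4 : k * (c * t * c⁻¹) * k⁻¹ = a'⁻¹ * (a' * k * c * t * (a' * k * c)⁻¹) * a' := by group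
    rw [h4]
    exact mul_mem (mul_mem (inv_mem ha'P) h1) ha'P
  set c₁ := c * (t * c⁻¹ * t⁻¹) with hc₁
  have hc₁N : c₁ ∈ RGD.Sup X (NW cs h w) := by
    refine mul_mem hc ?_
    exact (mem_normalizer_iff.1 (R.T_le_normalizer (S := NW cs h w) (fun x hx => hx.1) ht) c⁻¹).1 (inv_mem hc)
  have hkt : k * t * k⁻¹ ∈ T := (mem_normalizer_iff.1 hk.mem_normalizer t).1 ht
  have h5 : k * c₁ * k⁻¹ ∈ PJ cs h T X K := by
    have h4 : k * c₁ * k⁻¹ = k * (c * t * c⁻¹) * k⁻¹ * (k * t * k⁻¹)⁻¹ := by rw [hc₁]; group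
    rw [h4]
    exact mul_mem h3 (inv_mem (B_le_PJ (RGD.T_le_B hkt)))
  have h6 : k * c₁ * k⁻¹ ∈ VNJ cs h X K :=
    conj_mem_Sup R hk (S' := NotNJ cs h K) (fun x hx => hx.1) (fun x hx => neg_mem_NotJ hmin hx) hc₁N
  have h7 := eq_one_of_mem_VNJ_of_mem_PJ R h6 h5
  have h8 : c₁ = 1 := by
    have : c₁ = k⁻¹ * (k * c₁ * k⁻¹) * k := by group
    rw [this, h7]; group
  have h11 : c * t * c⁻¹ = t := by
    have h10 : c * t * c⁻¹ * t⁻¹ = 1 := by rw [← h8, hc₁]; group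
    exact mul_inv_eq_one.1 h10
  refine ⟨a', ha'P, k * t * k⁻¹, hkt, ?_⟩
  calc a' * k * c * t * (a' * k * c)⁻¹ = a' * k * (c * t * c⁻¹) * k⁻¹ * a'⁻¹ := by group
    _ = a' * (k * t * k⁻¹) * a'⁻¹ := by rw [h11]; group

/-- fixed points of torus elements in `V_J` -/
theorem exists_root_VJ {J : Set I} {t u : Y} (ht : t ∈ T) (hu : u ∈ VJ cs h X J) (hu1 : u ≠ 1) (hc : t * u = u * t) :
    ∃ a ∈ NotJ cs h J, ∃ x ∈ X a, x ≠ 1 ∧ t * x = x * t := by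
  by_contra hcon
  push Not at hcon
  have h12 : u ∈ RGD.Sup X (RGD.Pos cs h) ⊓ centralizer {t} :=
    ⟨RGD.Sup_mono (S := NotJ cs h J) (S' := RGD.Pos cs h) (fun x hx => ⟨hx.1, hx.2.1⟩) hu,
      mem_centralizer_singleton_iff.2 hc.symm⟩
  rw [centralizer_U R (Set.singleton_subset_iff.2 ht)] at h12
  have h13 : RGD.Sup (fun x => X x ⊓ centralizer {t}) (RGD.Pos cs h) ≤ LJ cs h T X J := by
    refine RGD.Sup_le fun x hx => ?_
    by_cases h1 : ∃ i, i ∉ J ∧ 0 < x i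
    · rintro u ⟨hu, huc⟩
      have h2 : u = 1 := by
        by_contra h3
        exact hcon x ⟨hx.1, hx.2, h1⟩ u hu h3 (mem_centralizer_singleton_iff.1 huc).symm
      rw [h2]
      exact one_mem _
    · push Not at h1
      exact inf_le_left.trans (X_le_LJ ⟨hx.1, fun i hi => le_antisymm (h1 i hi) (hx.2 i)⟩)
  exact hu1 (eq_one_of_mem_LJ_of_mem_VJ R (h13 h12) hu)

end RGD

section Lim

variable {I W Y : Type*} [Fintype I] [DecidableEq I] [Group W] [Group Y] {M : CoxeterMatrix I}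
  {cs : CoxeterSystem M W} {A : I → I → ℤ} {h : IsCartan M A} {p : ℕ}
variable {J' : Type*} [Preorder J'] {T : J' → Subgroup Y} {n : I → Y} {X : J' → (I → ℤ) → Subgroup Y}
  (H : Tow cs h p T n X) [Finite W]

include H

theorem exists_conj_TL {K : Set I} {t y : Y} (ht : t ∈ TL T) (hy : y ∈ GG cs h (TL T) (XL X))
    (h1 : y * t * y⁻¹ ∈ PJ cs h (TL T) (XL X) K) :
    ∃ a ∈ PJ cs h (TL T) (XL X) K, ∃ t' ∈ TL T, y * t * y⁻¹ = a * t' * a⁻¹ := by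
  obtain ⟨j1, h2⟩ := H.mem_TL.1 ht
  obtain ⟨j2, h3⟩ := H.mem_GG.1 hy
  obtain ⟨j3, h4⟩ := (H381.Car.mem_PJL H).1 h1
  obtain ⟨j4, a1, a2⟩ := H.dir j1 j2
  obtain ⟨j, a3, a4⟩ := H.dir j3 j4
  obtain ⟨a, ha, t', ht', e⟩ := exists_conj_T (H.rgd j) (K := K) (H.monoT (a1.trans a4) h2)
    (H.mono_GG (a2.trans a4) h3) (mono_PJ H a3 K h4)
  exact ⟨a, (H381.Car.mem_PJL H).2 ⟨j, ha⟩, t', le_TL j ht', e⟩

theorem exists_root_VJL {J : Set I} {t u : Y} (ht : t ∈ TL T) (hu : u ∈ VJ cs h (XL X) J) (hu1 : u ≠ 1)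
    (hc : t * u = u * t) : ∃ a ∈ NotJ cs h J, ∃ x ∈ XL X a, x ≠ 1 ∧ t * x = x * t := by
  obtain ⟨j1, h2⟩ := H.mem_TL.1 ht
  obtain ⟨j2, h3⟩ := H.mem_Sup.1 hu
  obtain ⟨j, a1, a2⟩ := H.dir j1 j2
  obtain ⟨a, ha, x, hx, h4, h5⟩ := exists_root_VJ (H.rgd j) (J := J) (H.monoT a1 h2) (H.mono_Sup _ a2 h3) hu1 hc
  exact ⟨a, ha, x, le_XL j a hx, h4, h5⟩

theorem mem_PJL' {J : Set I} {x : Y} : x ∈ PJ cs h (TL T) (XL X) J ↔
    ∃ l ∈ LJ cs h (TL T) (XL X) J, ∃ v ∈ VJ cs h (XL X) J, x = v * l := by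
  constructor
  · intro hx
    obtain ⟨j, h1⟩ := (H381.Car.mem_PJL H).1 hx
    obtain ⟨l, hl, v, hv, e⟩ := (mem_PJ (H.rgd j)).1 h1
    have h2 := PJ_le_normalizer_VJ (H.rgd j) J (LJ_le_PJ hl)
    refine ⟨l, (mem_LJL H).2 ⟨j, hl⟩, l * v * l⁻¹, Sup_le_SupL j _ ((mem_normalizer_iff.1 h2 v).1 hv), ?_⟩
    rw [e]; group
  · rintro ⟨l, hl, v, hv, rfl⟩
    exact mul_mem (VJ_le_PJ hv) (LJ_le_PJ hl)

theorem eq_one_VNJ_PJL {J : Set I} {x : Y} (hx : x ∈ VNJ cs h (XL X) J) (hP : x ∈ PJ cs h (TL T) (XL X) J) : x = 1 := by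
  obtain ⟨j1, h1⟩ := (H381.Car.mem_PJL H).1 hP
  obtain ⟨j2, h2⟩ := H.mem_Sup.1 hx
  obtain ⟨j, a1, a2⟩ := H.dir j1 j2
  exact eq_one_of_mem_VNJ_of_mem_PJ (H.rgd j) (J := J) (H.mono_Sup _ a2 h2) (mono_PJ H a1 J h1)

/-- an element of `L_J` conjugate in `P_J` to `t ∈ T` is conjugate in `L_J` to `t` -/
theorem LJ_of_PJ {J : Set I} {x a t : Y} (hx : x ∈ LJ cs h (TL T) (XL X) J) (ha : a ∈ PJ cs h (TL T) (XL X) J)
    (ht : t ∈ TL T) (e : x = a * t * a⁻¹) : ∃ l ∈ LJ cs h (TL T) (XL X) J, x = l * t * l⁻¹ := by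
  obtain ⟨l, hl, v, hv, rfl⟩ := (mem_PJL' H).1 ha
  refine ⟨l, hl, ?_⟩
  have htL : t ∈ LJ cs h (TL T) (XL X) J := (le_sup_left : TL T ≤ LJ cs h (TL T) (XL X) J) ht
  set m := l * t * l⁻¹ with hm
  have hmL : m ∈ LJ cs h (TL T) (XL X) J := mul_mem (mul_mem hl htL) (inv_mem hl)
  have h1 : x = v * m * v⁻¹ := by rw [e, hm]; group
  have h2 : x * m⁻¹ ∈ VJ cs h (XL X) J := by
    have h3 : x * m⁻¹ = v * (m * v⁻¹ * m⁻¹) := by rw [h1]; group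
    rw [h3]
    exact mul_mem hv (H381.Car.PJL_conj_mem H (LJ_le_PJ hmL) (inv_mem hv))
  have h4 := LJL_inf_VJL H (mul_mem hx (inv_mem hmL)) h2
  exact mul_inv_eq_one.1 h4

end Lim

section K

variable {D : ChevalleyDatum} {l : ℕ} {M : CoxeterMatrix (Fin l)} (hp : IsType D l M)
  {W : Type v} [Group W] (cs : CoxeterSystem M W) {k : Type u} [Field k] [IsAlgClosed k] (hk : LocFin k) (p : ℕ)
  [Fact p.Prime] [CharP k p] [Finite W]

include hk in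
/-- **Semisimple elements of Levi subgroups are toral.** -/
theorem toral_LJ (hA : Cfsg.Agent.BpExc.TorAll.HAlg p k) {J : Set (Fin l)} {x : ↥(D.group k)}
    (hx : x ∈ LJ cs hp.isCartan (TT D k) (XX D l k) J) {m : ℕ} (hm : m ≠ 0) (hmp : m.Coprime p) (hxm : x ^ m = 1) :
    ∃ g ∈ LJ cs hp.isCartan (TT D k) (XX D l k) J, ∃ t ∈ TT D k, x = g * t * g⁻¹ := by
  have H := tow hp cs hk p
  obtain ⟨y, hy⟩ := H944.TorAnyChev.exists_conj_mem_TT hp p hA hm hmp hxm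
  have hx' : x ∈ LJ cs hp.isCartan (TL (Tj hp (k := k))) (XL (Xj hp)) J := by
    rw [TL_eq hp hk, XL_eq hp hk]; exact hx
  have e : x = y⁻¹ * (y * x * y⁻¹) * y⁻¹⁻¹ := by group
  obtain ⟨a, ha, t, ht, e2⟩ := exists_conj_TL H (K := J) (t := y * x * y⁻¹) (y := y⁻¹)
    (by rw [TL_eq hp hk]; exact hy) (by rw [GG_eq_top hp cs hk]; exact mem_top _)
    (by rw [← e]; exact LJ_le_PJ hx')
  obtain ⟨g, hg, e3⟩ := LJ_of_PJ H hx' ha ht (e.trans e2)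
  rw [TL_eq hp hk, XL_eq hp hk] at hg
  rw [TL_eq hp hk] at ht
  exact ⟨g, hg, t, ht, e3⟩

end K

end Cfsg.Agent.H798.RG
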